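import Mathlib
import Cfsg.Agent.Lib.Helper35.JR.Defs
import Cfsg.Agent.Lib.Helper43.AutPSL2.Main

/-!
# JR (S3206): package [KEY0]
-/

set_option autoImplicit false

namespace Cfsg.Agent.Lib.Helper83.JR

open Cfsg.Agent.Lib.Helper35.JR Cfsg.Agent.Lib.Helper43.AutPSL2 Matrix

universe u

variable {F : Type u} [Field F]

local notation "M₂" => Matrix (Fin 2) (Fin 2) F
local notation "SL₂" => Matrix.SpecialLinearGroup (Fin 2) F
local notation "PSL₂" => Matrix.ProjectiveSpecialLinearGroup (Fin 2) F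

theorem dFun_mul_diag83 (c : Fˣ) (M : SL₂) :
    (dFun c M : M₂) * !![(c : F), 0; 0, 1] = !![(c : F), 0; 0, 1] * (M : M₂) := by
  have hc : (c : F) * (c : F)⁻¹ = 1 := mul_inv_cancel₀ c.ne_zero
  have hc' : (c : F)⁻¹ * (c : F) = 1 := inv_mul_cancel₀ c.ne_zero
  ext i j
  fin_cases i <;> fin_cases j
  · simp [Matrix.mul_apply, Fin.sum_univ_two, mul_comm]
  · simp [Matrix.mul_apply, Fin.sum_univ_two]
  · simp [Matrix.mul_apply, Fin.sum_univ_two]
    linear_combination (M 1 0) * hc'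
  · simp [Matrix.mul_apply, Fin.sum_univ_two]

theorem comm_sign83 (c : Fˣ) (G X : SL₂) (h : pm (G * dFun c X * G⁻¹) = pm X) :
    ((G : M₂) * !![(c : F), 0; 0, 1]) * (X : M₂) = (X : M₂) * ((G : M₂) * !![(c : F), 0; 0, 1]) ∨
    ((G : M₂) * !![(c : F), 0; 0, 1]) * (X : M₂) =
      -((X : M₂) * ((G : M₂) * !![(c : F), 0; 0, 1])) := by
  have h1 : pm (G * dFun c X) = pm (X * G) := by
    rw [map_mul pm X G, ← h, ← map_mul]
    congr 1
    group
  rcases (pm_eq_iff _ _).mp h1 with h2 | h2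
  · left
    rw [Matrix.SpecialLinearGroup.coe_mul, Matrix.SpecialLinearGroup.coe_mul] at h2
    rw [Matrix.mul_assoc, ← dFun_mul_diag83, ← Matrix.mul_assoc, h2, Matrix.mul_assoc]
  · right
    rw [Matrix.SpecialLinearGroup.coe_mul, Matrix.SpecialLinearGroup.coe_mul] at h2
    rw [Matrix.mul_assoc, ← dFun_mul_diag83, ← Matrix.mul_assoc, h2, Matrix.neg_mul,
      Matrix.mul_assoc]

theorem conj_eq83 (c : Fˣ) (G X : SL₂) (c' : F)
    (hh : (G : M₂) * !![(c : F), 0; 0, 1] = c' • (X : M₂)) (M : SL₂) :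
    G * dFun c M * G⁻¹ = X * M * X⁻¹ := by
  rw [mul_inv_eq_iff_eq_mul]
  apply Subtype.ext
  simp only [Matrix.SpecialLinearGroup.coe_mul]
  have hcc : (c : F) * (c : F)⁻¹ = 1 := mul_inv_cancel₀ c.ne_zero
  have hD : !![(c : F), 0; 0, 1] * !![(c : F)⁻¹, 0; 0, 1] = (1 : M₂) := by
    ext i j
    fin_cases i <;> fin_cases j <;>
      simp [Matrix.mul_apply, Fin.sum_univ_two]
  have hX : ((X⁻¹ : SL₂) : M₂) * (X : M₂) = 1 := by
    rw [← Matrix.SpecialLinearGroup.coe_mul, inv_mul_cancel]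
    rfl
  have e1 : (G : M₂) * (dFun c M : M₂) * !![(c : F), 0; 0, 1] = c' • ((X : M₂) * (M : M₂)) := by
    rw [Matrix.mul_assoc, dFun_mul_diag83, ← Matrix.mul_assoc, hh, Matrix.smul_mul]
  have e2 : (X : M₂) * (M : M₂) * ((X⁻¹ : SL₂) : M₂) * (G : M₂) * !![(c : F), 0; 0, 1] =
      c' • ((X : M₂) * (M : M₂)) := by
    rw [Matrix.mul_assoc _ (G : M₂), hh, Matrix.mul_smul, Matrix.mul_assoc, hX, Matrix.mul_one]
  calc (G : M₂) * (dFun c M : M₂)
      = (G : M₂) * (dFun c M : M₂) * (!![(c : F), 0; 0, 1] * !![(c : F)⁻¹, 0; 0, 1]) := by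
        rw [hD, Matrix.mul_one]
    _ = c' • ((X : M₂) * (M : M₂)) * !![(c : F)⁻¹, 0; 0, 1] := by
        rw [← Matrix.mul_assoc, e1]
    _ = (X : M₂) * (M : M₂) * ((X⁻¹ : SL₂) : M₂) * (G : M₂) *
          (!![(c : F), 0; 0, 1] * !![(c : F)⁻¹, 0; 0, 1]) := by
        rw [← Matrix.mul_assoc, e2]
    _ = _ := by rw [hD, Matrix.mul_one]

/-- [KEY0] an automorphism of `PSL₂(F)` of 2-power order fixing `A` and `B` is conjugation by
an element of `V₀`, provided `Aut(F)` has no nontrivial 2-elements. -/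
theorem pkgKey0 (hV0 : PkgV0.{u}) : PkgKey0.{u} := by
  intro F _ _ h2 a b h hσ α k hα hA hB
  obtain ⟨p, _, n, hp, hcard⟩ := FiniteField.card' F
  haveI : Fact p.Prime := ⟨hp⟩
  have hf : 1 ≤ (n : ℕ) := n.pos
  obtain ⟨g, c, σ, hα'⟩ := aut_structure hf hcard
    (α : MulAut (Matrix.ProjectiveSpecialLinearGroup (Fin 2) F))
  have hσ1 : σ = 1 := by
    apply hσ σ k
    have htw : twHom hf hcard α = σ := by
      apply twHom_eq hf hcard
      rw [hα']
      have h3 := tw_mul (tw_mul (tw_conj g) (tw_dAut c)) (tw_fAut σ)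
      simpa using h3
    rw [← htw, ← map_pow, hα, map_one]
  subst hσ1
  obtain ⟨G, rfl⟩ := pm_surjective g
  have hform : ∀ M : Matrix.SpecialLinearGroup (Fin 2) F,
      α (pm M) = pm (G * dFun c M * G⁻¹) := by
    intro M
    rw [hα']
    simp only [MulAut.mul_apply, MulAut.conj_apply, pslAut_pm, fAut_one, map_one,
      MulAut.one_apply, dAut_apply, map_mul, map_inv]
  have hsA := comm_sign83 c G (elA F) (by rw [← hform]; exact hA)
  have hsB := comm_sign83 c G (elB a b h) (by rw [← hform]; exact hB)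
  obtain ⟨c', hc'⟩ := hV0 F h2 a b h
    ((G : Matrix (Fin 2) (Fin 2) F) * !![(c : F), 0; 0, 1]) hsA hsB
  rcases hc' with h1 | h1 | h1 | h1
  · refine ⟨1, by unfold V0; simp, fun x => ?_⟩
    obtain ⟨M, rfl⟩ := pm_surjective x
    rw [hform, conj_eq83 c G 1 c' (by rw [Matrix.SpecialLinearGroup.coe_one]; exact h1) M]
    simp
  · refine ⟨pA F, by unfold V0; simp, fun x => ?_⟩
    obtain ⟨M, rfl⟩ := pm_surjective x
    rw [hform, conj_eq83 c G (elA F) c' h1 M]
    show pm (elA F * M * (elA F)⁻¹) = pm (elA F) * pm M * (pm (elA F))⁻¹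
    rw [map_mul, map_mul, map_inv]
  · refine ⟨pB a b h, by unfold V0; simp, fun x => ?_⟩
    obtain ⟨M, rfl⟩ := pm_surjective x
    rw [hform, conj_eq83 c G (elB a b h) c' h1 M]
    show pm (elB a b h * M * (elB a b h)⁻¹) = pm (elB a b h) * pm M * (pm (elB a b h))⁻¹
    rw [map_mul, map_mul, map_inv]
  · refine ⟨pA F * pB a b h, by unfold V0; simp, fun x => ?_⟩
    obtain ⟨M, rfl⟩ := pm_surjective x
    rw [hform, conj_eq83 c G (elA F * elB a b h) c'
      (by rw [Matrix.SpecialLinearGroup.coe_mul]; exact h1) M]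
    show pm (elA F * elB a b h * M * (elA F * elB a b h)⁻¹) =
      pm (elA F) * pm (elB a b h) * pm M * (pm (elA F) * pm (elB a b h))⁻¹
    rw [map_mul, map_mul, map_inv, map_mul]

end Cfsg.Agent.Lib.Helper83.JR
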